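import Cfsg.Agent.SL2.Solv
import Cfsg.Agent.SL2.More

/-!
Counting the elements generating a solvable subgroup together with a given element of SL₂.
-/

set_option autoImplicit false

open Matrix

namespace Cfsg.Agent.SL2

theorem card_prod_subtype {A B : Type*} [Fintype A] [Finite B] (R : A → B → Prop) :
    Nat.card {x : A × B // R x.1 x.2} = ∑ a, Nat.card {b // R a b} := by
  rw [Nat.card_congr (Equiv.subtypeProdEquivSigmaSubtype R), Nat.card_sigma]

variable {F : Type*} [Field F]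

theorem card_mul_eq_one [Fintype F] : Nat.card {x : F × F // x.1 * x.2 = 1} = Fintype.card F - 1 := by
  rw [← card_ne_zero]
  exact Nat.card_congr ⟨fun x => ⟨x.1.1, left_ne_zero_of_mul_eq_one x.2⟩, fun a => ⟨(a.1, a.1⁻¹), mul_inv_cancel₀ a.2⟩,
    fun x => Subtype.ext (Prod.ext rfl (eq_inv_of_mul_eq_one_right x.2).symm), fun _ => rfl⟩

theorem card_add_mem [Fintype F] (S : F → Prop) :
    Nat.card {x : F × F // S (x.1 + x.2)} = Nat.card {a // S a} * Fintype.card F := by
  rw [← Nat.card_eq_fintype_card, ← Nat.card_prod]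
  exact Nat.card_congr ⟨fun x => (⟨x.1.1 + x.1.2, x.2⟩, x.1.1), fun y => ⟨(y.2, y.1.1 - y.2), by simpa using y.1.2⟩,
    fun x => by ext <;> simp, fun y => by ext <;> simp⟩

theorem count_c [Fintype F] [DecidableEq F] (P : F → F → F → F → Prop) (h0 : ∀ a b d, P a b 0 d) (n : F → ℕ)
    (h : ∀ c ≠ 0, Nat.card {x : F × F // P x.1 ((x.1 * x.2 - 1) / c) c x.2} = n c) :
    Nat.card {Y : SLT F // P (Y.1 0 0) (Y.1 0 1) (Y.1 1 0) (Y.1 1 1)} =
      Fintype.card F * (Fintype.card F - 1) + ∑ c ∈ Finset.univ.erase 0, n c := by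
  have e : Nat.card {Y : SLT F // P (Y.1 0 0) (Y.1 0 1) (Y.1 1 0) (Y.1 1 1)} =
      Nat.card {x : F × F × F × F // x.2.2.1 * x.2.2.2 - x.2.1 * x.1 = 1 ∧ P x.2.2.1 x.2.1 x.1 x.2.2.2} :=
    Nat.card_congr ⟨fun Y => ⟨(Y.1.1 1 0, Y.1.1 0 1, Y.1.1 0 0, Y.1.1 1 1), sl_det Y.1, Y.2⟩,
      fun x => ⟨mkSL !![x.1.2.2.1, x.1.2.1; x.1.1, x.1.2.2.2] (by rw [det_fin_two_of]; exact x.2.1), x.2.2⟩,
      fun Y => Subtype.ext (sl_ext (m2_ext rfl rfl rfl rfl)), fun _ => rfl⟩
  rw [e, card_prod_subtype (fun (c : F) (y : F × F × F) => y.2.1 * y.2.2 - y.1 * c = 1 ∧ P y.2.1 y.1 c y.2.2),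
    ← Finset.add_sum_erase _ _ (Finset.mem_univ (0 : F))]
  congr 1
  · rw [card_prod_subtype (fun (b : F) (y : F × F) => y.1 * y.2 - b * 0 = 1 ∧ P y.1 b 0 y.2)]
    simp only [h0, mul_zero, sub_zero, and_true, card_mul_eq_one]; simp
  · refine Finset.sum_congr rfl fun c hc => ?_
    have hc := (Finset.mem_erase.1 hc).1
    rw [← h c hc]
    have k : ∀ y : F × F × F, y.2.1 * y.2.2 - y.1 * c = 1 → (y.2.1 * y.2.2 - 1) / c = y.1 := fun y hy => by
      rw [div_eq_iff hc]; linear_combination hy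
    exact Nat.card_congr ⟨fun y => ⟨y.1.2, by rw [k _ y.2.1]; exact y.2.2⟩,
      fun x => ⟨((x.1.1 * x.1.2 - 1) / c, x.1), by simp [hc], x.2⟩,
      fun y => Subtype.ext (Prod.ext (k _ y.2.1) rfl), fun _ => rfl⟩

theorem Q_ne_of_ell {X : SLT F} (h : Ell X.1.trace 1) {x y : F} (h0 : x ≠ 0 ∨ y ≠ 0) : Q X.1 x y ≠ 0 := by
  intro e
  have d := sl_det X
  simp only [Q] at e
  rw [trace_fin_two] at h
  rcases h0 with h0 | h0
  · refine h (X.1 0 0 + X.1 0 1 * y / x) ?_
    field_simp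
    linear_combination (-X.1 0 1) * e - x ^ 2 * d
  · refine h (X.1 1 1 + X.1 1 0 * x / y) ?_
    field_simp
    linear_combination (X.1 1 0) * e - y ^ 2 * d

theorem sv_of_ncen {X Y : SLT F} (hX : X.1.trace ^ 2 ≠ 4) (h : Y ∈ NCen X) : Sv X Y :=
  sv_of_iv (g := X) (Or.inl (by simp)) ((mem_ncen_iff hX).1 h) (sl_not_isScal_of_disc hX)

theorem Sv.cases' (hns : (2 : F) = 0 ∨ ¬ IsSquare (2 : F)) {X Y : SLT F} (hX : X.1.trace ^ 2 ≠ 4) (h0 : X.1.trace ≠ 0)
    (h1 : (2 : F) = 0 ∨ X.1.trace ^ 2 ≠ 1) (h : Sv X Y) :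
    (∃ x y : F, (x ≠ 0 ∨ y ≠ 0) ∧ Q X.1 x y = 0 ∧ Q Y.1 x y = 0) ∨ Y ∈ NCen X := by
  rcases h.cases hns (sl_not_isScal_of_disc hX) with h | h | h | ⟨h2, h⟩
  · exact Or.inl h
  · exact Or.inr h.2
  · exact absurd h.1 h0
  · rcases h X (Subgroup.subset_closure (by simp)) with h | h | h
    · exact absurd h (sl_not_isScal_of_disc hX)
    · exact absurd h h0
    · exact absurd h (h1.resolve_left h2)

theorem card_sv_ell [Fintype F] (hns : (2 : F) = 0 ∨ ¬ IsSquare (2 : F)) {X : SLT F} (hX : Ell X.1.trace 1)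
    (h0 : X.1.trace ≠ 0) (h1 : (2 : F) = 0 ∨ X.1.trace ^ 2 ≠ 1) :
    Nat.card {Y // Sv X Y} = 2 * (Fintype.card F + 1) := by
  rw [← card_cent_ell hX, ← card_ncen hX.disc_one]
  refine Nat.card_congr (Equiv.subtypeEquivRight fun Y => ⟨fun h => ?_, sv_of_ncen hX.disc_one⟩)
  rcases h.cases' hns hX.disc_one h0 h1 with ⟨x, y, h2, h3, -⟩ | h
  · exact absurd h3 (Q_ne_of_ell hX h2)
  · exact h

theorem card_sv_spl [Fintype F] (hns : (2 : F) = 0 ∨ ¬ IsSquare (2 : F)) {X : SLT F} (hX : Spl X.1.trace 1)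
    (h0 : X.1.trace ≠ 0) (h1 : (2 : F) = 0 ∨ X.1.trace ^ 2 ≠ 1) :
    Nat.card {Y // Sv X Y} = 2 * Fintype.card F * (Fintype.card F - 1) := by
  classical
  obtain ⟨a, ha, e⟩ := hX.exists_dg
  have hd := hX.disc_one
  rw [card_sv_conj (sl_isConj_of_trace hd e.symm)]
  rw [← e] at hd h0 h1
  have ha' : (a : F)⁻¹ - a ≠ 0 := fun h => ha (by
    rw [sub_eq_zero] at h
    rw [pow_two]; nth_rewrite 1 [← h]; exact inv_mul_cancel₀ a.ne_zero)
  have k : ∀ Y, Sv (dg a) Y ↔ (Y.1 1 0 = 0 ∨ Y.1 0 1 = 0 ∨ (Y.1 0 0 = 0 ∧ Y.1 1 1 = 0)) := fun Y => by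
    constructor
    · intro h
      rcases h.cases' hns hd h0 h1 with ⟨x, y, h2, h3, h4⟩ | h
      · simp only [Q, dg_val] at h3 h4
        simp [ha'] at h3
        rcases h3 with rfl | rfl
        · right; left; simpa [h2.resolve_left (by simp)] using h4
        · left; simpa [h2.resolve_right (by simp)] using h4
      · rcases (mem_ncen_iff hd).1 h with h | h <;> rw [mul_inv_eq_iff_eq_mul] at h
        · have := congrArg (fun g : SLT F => g.1 1 0) h
          simp only [Matrix.SpecialLinearGroup.coe_mul, mul_ap, dg_val] at this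
          simp at this
          exact Or.inl (mul_left_cancel₀ ha' (by linear_combination -this))
        · have h3 := congrArg (fun g : SLT F => g.1 0 0) h
          have h4 := congrArg (fun g : SLT F => g.1 1 1) h
          simp only [Matrix.SpecialLinearGroup.coe_mul, mul_ap, sl_inv_val, dg_val] at h3 h4
          simp at h3 h4
          exact Or.inr (Or.inr ⟨mul_left_cancel₀ ha' (by linear_combination -h3),
            mul_left_cancel₀ ha' (by linear_combination h4)⟩)
    · rintro (h | h | ⟨h, h'⟩)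
      · exact sv_of_bor (by simp [dg_val]) h
      · exact sv_of_bor' (by simp [dg_val]) h
      · refine sv_of_ncen hd ((mem_ncen_iff hd).2 (Or.inr ?_))
        rw [mul_inv_eq_iff_eq_mul]
        refine sl_ext ?_
        simp only [Matrix.SpecialLinearGroup.coe_mul, sl_inv_val, dg_val, m2_ext_iff, mul_ap]
        simp [h, h', mul_comm]
  rw [Nat.card_congr (Equiv.subtypeEquivRight k),
    count_c (fun a b c d => c = 0 ∨ b = 0 ∨ (a = 0 ∧ d = 0)) (by simp) (fun _ => Fintype.card F)]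
  · simp; ring
  · intro c hc
    have e1 : Nat.card {x : F × F // x.1 * x.2 = 1 ∨ x = 0} = Fintype.card F := by
      rw [Nat.card_congr (subtypeOrEquiv _ _ (by
        rw [Pi.disjoint_iff]; rintro x; rw [Prop.disjoint_iff]; rintro ⟨h, rfl⟩; simp at h)), Nat.card_sum, card_mul_eq_one]
      have := Fintype.card_pos (α := F)
      simp; omega
    rw [← e1]
    exact Nat.card_congr (Equiv.subtypeEquivRight fun x => by simp [hc, sub_eq_zero, Prod.ext_iff])

theorem sv_upT_cases (hns : (2 : F) = 0 ∨ ¬ IsSquare (2 : F)) {b : F} (hb : b ≠ 0) {Y : SLT F} (h : Sv (upT b) Y) :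
    Y.1 1 0 = 0 ∨ ((2 : F) = 0 ∧ (Y.1.trace = 0 ∨ (upT b * Y).1.trace = 0)) ∨
      ((2 : F) ≠ 0 ∧ ∀ g ∈ Subgroup.closure ({upT b, Y} : Set (SLT F)), IsScal g.1 ∨ g.1.trace = 0 ∨ g.1.trace ^ 2 = 1) := by
  have ht : (upT b).1.trace = 2 := by simp [upT_val, trace_fin_two]; norm_num
  rcases h.cases hns (by simpa [isScal_upT]) with ⟨x, y, h2, h3, h4⟩ | h | h | h
  · rw [Q_upT] at h3
    obtain rfl : y = 0 := by simpa [hb] using h3
    left; simpa [Q, h2.resolve_right (by simp)] using h4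
  · exact absurd (by rw [ht]; norm_num) h.1
  · exact Or.inr (Or.inl ⟨ht ▸ h.1, h.2⟩)
  · exact Or.inr (Or.inr h)

theorem trace_upT_mul (b : F) (Y : SLT F) : (upT b * Y).1.trace = Y.1 0 0 + Y.1 1 1 + b * Y.1 1 0 := by
  simp only [Matrix.SpecialLinearGroup.coe_mul, trace_fin_two, mul_ap, upT_val]; simp; ring

theorem card_sv_par_two [Fintype F] (h2 : (2 : F) = 0) {X : SLT F} (hX : ¬ IsScal X.1) (h0 : X.1.trace = 0) :
    Nat.card {Y // Sv X Y} = 3 * Fintype.card F * (Fintype.card F - 1) := by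
  classical
  obtain ⟨b, hb, e⟩ := isConj_upT (h0.trans h2.symm) hX
  rw [card_sv_conj e]
  have ht : (upT b).1.trace = 0 := by rw [← sl_trace_of_isConj e, h0]
  have k : ∀ Y, Sv (upT b) Y ↔ (Y.1 1 0 = 0 ∨ Y.1 0 0 + Y.1 1 1 = 0 ∨ Y.1 0 0 + Y.1 1 1 = -(b * Y.1 1 0)) := fun Y => by
    rw [← add_eq_zero_iff_eq_neg, ← trace_upT_mul, ← trace_fin_two]
    constructor
    · intro h
      rcases sv_upT_cases (Or.inl h2) hb h with h | h | h
      exacts [Or.inl h, Or.inr h.2, absurd h2 h.1]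
    · rintro (h | h | h)
      · exact sv_of_bor (by simp [upT_val]) h
      · exact sv_of_trace (by simpa [isScal_upT]) ht h
      · exact sv_of_trace_mul (by simpa [isScal_upT]) ht h
  rw [Nat.card_congr (Equiv.subtypeEquivRight k),
    count_c (fun a _ c d => c = 0 ∨ a + d = 0 ∨ a + d = -(b * c)) (by simp) (fun _ => 2 * Fintype.card F)]
  · simp; ring
  · intro c hc
    simp only [hc, false_or]
    rw [card_add_mem (fun s => s = 0 ∨ s = -(b * c))]
    congr 1
    exact Set.ncard_pair (by simp [hb, hc])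

theorem three_cases (h3 : (3 : F) = 0) {g : SLT F} (h : IsScal g.1 ∨ g.1.trace = 0 ∨ g.1.trace ^ 2 = 1) :
    g.1.trace = 0 ∨ g.1.trace = 1 ∨ g.1.trace = -1 := by
  rcases h with h | h | h
  · rcases sl_isScal_iff.1 h with rfl | rfl
    · right; right; simp; linear_combination h3
    · right; left; simp; linear_combination -h3
  · exact Or.inl h
  · exact Or.inr (sq_eq_one_iff.1 h)

theorem card_sv_par_three [Fintype F] (h3 : (3 : F) = 0) (hns : ¬ IsSquare (2 : F)) {X : SLT F} (hX : ¬ IsScal X.1)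
    (h0 : X.1.trace = 2) : Nat.card {Y // Sv X Y} = Fintype.card F * (Fintype.card F + 5) := by
  classical
  have h2 : (2 : F) ≠ 0 := fun e => one_ne_zero (α := F) (by linear_combination h3 - e)
  obtain ⟨b, hb, e⟩ := isConj_upT h0 hX
  rw [card_sv_conj e]
  have k : ∀ Y, Sv (upT b) Y ↔ (Y.1 1 0 = 0 ∨ ((Y.1 0 0 + Y.1 1 1 = 0 ∨ Y.1 0 0 + Y.1 1 1 = 1 ∨ Y.1 0 0 + Y.1 1 1 = -1) ∧
      (Y.1 1 0 = b⁻¹ ∨ Y.1 1 0 = -b⁻¹))) := fun Y => by
    constructor
    · intro h
      rcases sv_upT_cases (Or.inr hns) hb h with h | h | ⟨-, h⟩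
      · exact Or.inl h
      · exact absurd h.1 h2
      · have k1 := three_cases h3 (h Y (Subgroup.subset_closure (by simp)))
        have k2 := three_cases h3 (h (upT b * Y) (mul_mem (Subgroup.subset_closure (by simp))
          (Subgroup.subset_closure (by simp))))
        rw [trace_upT_mul] at k2
        rw [trace_fin_two] at k1
        have k3 : b * Y.1 1 0 = 0 ∨ b * Y.1 1 0 = 1 ∨ b * Y.1 1 0 = -1 := by
          rcases k1 with k1 | k1 | k1 <;> rcases k2 with k2 | k2 | k2 <;>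
            first
            | exact Or.inl (by linear_combination k2 - k1)
            | exact Or.inr (Or.inl (by linear_combination k2 - k1))
            | exact Or.inr (Or.inr (by linear_combination k2 - k1))
            | exact Or.inr (Or.inl (by linear_combination k2 - k1 - h3))
            | exact Or.inr (Or.inr (by linear_combination k2 - k1 + h3))
        rcases k3 with k3 | k3 | k3
        · exact Or.inl (by simpa [hb] using k3)
        · exact Or.inr ⟨k1, Or.inl (by field_simp; linear_combination k3)⟩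
        · exact Or.inr ⟨k1, Or.inr (by field_simp; linear_combination k3)⟩
    · rintro (h | ⟨h, h'⟩)
      · exact sv_of_bor (by simp [upT_val]) h
      have hc : (b * Y.1 1 0) ^ 2 = 1 := by rcases h' with h' | h' <;> simp [h', hb]
      obtain ⟨n, hn⟩ : ∃ n : ℕ, Y.1 0 0 + Y.1 1 1 + n * b * Y.1 1 0 = 0 := by
        rcases sq_eq_one_iff.1 hc with hc | hc <;> rcases h with h | h | h
        exacts [⟨0, by simp [h]⟩, ⟨2, by push_cast; linear_combination h + 2 * hc + h3⟩, ⟨1, by push_cast; linear_combination h + hc⟩,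
          ⟨0, by simp [h]⟩, ⟨1, by push_cast; linear_combination h + hc⟩, ⟨2, by push_cast; linear_combination h + 2 * hc - h3⟩]
      have hp : upT (n * b) = upT b ^ n := by
        clear hn; induction n with
        | zero => simp [upT_zero]
        | succ n ih => rw [pow_succ, ← ih, ← upT_add]; push_cast; ring_nf
      have k1 : Sv (upT (n * b) * Y) (upT b) := by
        refine sv_of_a4 h2 hns (by rw [trace_upT_mul, hn]) ?_ ?_
        · simp [upT_val, trace_fin_two]; linear_combination h3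
        · rw [Matrix.SpecialLinearGroup.coe_mul, trace_mul_comm, ← Matrix.SpecialLinearGroup.coe_mul, ← mul_assoc, ← upT_add,
            trace_upT_mul]
          exact Eq.trans (by congr 1; linear_combination hn) hc
      have m1 : upT b ∈ Subgroup.closure ({upT (n * b) * Y, upT b} : Set (SLT F)) := Subgroup.subset_closure (by simp)
      refine sv_of_mem k1 m1 ((mul_mem_cancel_left (x := upT (n * b)) (hp ▸ pow_mem m1 n)).1 (Subgroup.subset_closure (by simp)))
  have c3 : Nat.card {s : F // s = 0 ∨ s = 1 ∨ s = -1} = 3 :=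
    Set.ncard_eq_three.2 ⟨0, 1, -1, by simp, by simp, fun e => h2 (by linear_combination e), rfl⟩
  rw [Nat.card_congr (Equiv.subtypeEquivRight k),
    count_c (fun a _ c d => c = 0 ∨ ((a + d = 0 ∨ a + d = 1 ∨ a + d = -1) ∧ (c = b⁻¹ ∨ c = -b⁻¹))) (by simp)
      (fun c => if c ∈ ({b⁻¹, -b⁻¹} : Finset F) then 3 * Fintype.card F else 0)]
  · rw [Finset.sum_ite_mem, Finset.inter_eq_right.2 (by intro c; simp; rintro (rfl | rfl) <;> simp [hb]), Finset.sum_const,
      Finset.card_pair (fun e => mul_ne_zero h2 (inv_ne_zero hb) (by linear_combination e))]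
    obtain ⟨m, hm⟩ := Nat.exists_eq_add_one.2 (Fintype.card_pos (α := F))
    simp [hm]; ring
  · intro c hc
    simp only [hc, false_or, Finset.mem_insert, Finset.mem_singleton]
    split_ifs with h
    · simp only [h, and_true]
      rw [card_add_mem (fun s => s = 0 ∨ s = 1 ∨ s = -1), c3]
    · simp [h]

theorem card_sum_sq [Fintype F] (h : Ell (0 : F) 1) {r : F} (hr : r ≠ 0) :
    Nat.card {p : F × F // p.1 ^ 2 + p.2 ^ 2 = r} = Fintype.card F + 1 := by
  obtain ⟨x, y, e⟩ := norm_surj h.disc r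
  rw [← card_norm_one_ell h]
  refine Nat.card_congr ⟨fun p => ⟨((p.1.1 * x + p.1.2 * y) / r, (p.1.2 * x - p.1.1 * y) / r), ?_⟩,
    fun p => ⟨(p.1.1 * x - p.1.2 * y, p.1.1 * y + p.1.2 * x), ?_⟩, fun p => ?_, fun p => ?_⟩
  · have := p.2
    field_simp
    linear_combination (x ^ 2 + y ^ 2) * this + r * e
  · have := p.2
    linear_combination (x ^ 2 + y ^ 2) * this + e
  · ext <;> simp only <;> field_simp
    · linear_combination p.1.1 * e
    · linear_combination p.1.2 * e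
  · ext <;> simp only <;> field_simp
    · linear_combination p.1.1 * e
    · linear_combination p.1.2 * e

theorem card_sv_inv_three [Fintype F] (h3 : (3 : F) = 0) (hns : ¬ IsSquare (2 : F)) {X : SLT F} (h0 : X.1.trace = 0) :
    Nat.card {Y // Sv X Y} = 2 * (Fintype.card F * (Fintype.card F + 1)) := by
  classical
  have h2 : (2 : F) ≠ 0 := fun e => one_ne_zero (α := F) (by linear_combination h3 - e)
  have hE : Ell (0 : F) 1 := fun r e => hns ⟨r, by linear_combination h3 - e⟩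
  have hw : (wS : SLT F).1.trace = 0 := by simp [wS_val, trace_fin_two]
  have hd := disc_of_trace_zero h2 hw
  rw [card_sv_conj (sl_isConj_of_trace (disc_of_trace_zero h2 h0) (h0.trans hw.symm))]
  have t2 : ∀ Y : SLT F, (wS * Y).1.trace = Y.1 1 0 - Y.1 0 1 := fun Y => by
    simp only [Matrix.SpecialLinearGroup.coe_mul, trace_fin_two, mul_ap, wS_val]; simp; ring
  have z : ∀ u v : F, u ^ 2 + v ^ 2 = 0 ↔ u = 0 ∧ v = 0 := fun u v => ⟨fun e => by
    by_cases hv : v = 0
    · simpa [hv] using e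
    · exact absurd (by field_simp; linear_combination e) (hE (u / v)), by rintro ⟨rfl, rfl⟩; simp⟩
  let A : F → F → Prop := fun s t => s ^ 2 + t ^ 2 = 1 ∨ s = 0 ∨ t = 0 ∨ (s ^ 2 = 1 ∧ t ^ 2 = 1)
  have k : ∀ Y, Sv wS Y ↔ A (Y.1 0 0 + Y.1 1 1) (Y.1 1 0 - Y.1 0 1) := fun Y => by
    have d := sl_det Y
    have c : Y ∈ Cen wS ↔ (Y.1 0 0 + Y.1 1 1) ^ 2 + (Y.1 1 0 - Y.1 0 1) ^ 2 = 1 := by
      rw [mem_cent_sl, ← sub_eq_zero (a := _ + _), show (Y.1 0 0 + Y.1 1 1) ^ 2 + (Y.1 1 0 - Y.1 0 1) ^ 2 - 1 =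
        (Y.1 0 0 - Y.1 1 1) ^ 2 + (Y.1 0 1 + Y.1 1 0) ^ 2 by linear_combination 4 * d + h3, z]
      simp only [m2_ext_iff, mul_ap, wS_val]
      simp only [sub_eq_zero, add_eq_zero_iff_eq_neg (a := Y.1 0 1)]
      simp; constructor
      · rintro ⟨a, b, -⟩; exact ⟨b, by rw [← a, neg_neg]⟩
      · rintro ⟨a, b⟩; simp [a, b]
    simp only [A]
    rw [← c, ← t2, ← trace_fin_two]
    constructor
    · intro h
      rcases h.cases (Or.inr hns) (sl_not_isScal_of_disc hd) with ⟨x, y, k1, k2, -⟩ | ⟨-, h⟩ | ⟨-, h⟩ | ⟨-, h⟩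
      · exact absurd k2 (Q_ne_of_ell (hw ▸ hE) k1)
      · by_cases h' : Y ∈ Cen wS
        · exact Or.inl h'
        · exact Or.inr (Or.inl (trace_eq_zero_of_inverts hd (inverts_of_mem_ncen hd h h')))
      · exact Or.inr (h.imp_right Or.inl)
      · have k1 := three_cases h3 (h Y (Subgroup.subset_closure (by simp)))
        have k2 := three_cases h3 (h (wS * Y) (mul_mem (Subgroup.subset_closure (by simp))
          (Subgroup.subset_closure (by simp))))
        rcases k1 with k1 | k1 | k1 <;> rcases k2 with k2 | k2 | k2 <;> simp only [k1, k2] <;> simp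
    · rintro (h | h | h | h)
      · exact sv_of_ncen hd (cen_le_ncen _ h)
      · exact sv_of_trace (sl_not_isScal_of_disc hd) hw h
      · exact sv_of_trace_mul (sl_not_isScal_of_disc hd) hw h
      · exact sv_of_a4 h2 hns hw h.1 h.2
  have e : Nat.card {Y : SLT F // A (Y.1 0 0 + Y.1 1 1) (Y.1 1 0 - Y.1 0 1)} =
      Nat.card {x : (F × F) × F × F // A x.1.1 x.1.2 ∧ x.2.1 ^ 2 + x.2.2 ^ 2 = x.1.1 ^ 2 + x.1.2 ^ 2 - 1} := by
    refine Nat.card_congr ⟨fun Y => ⟨((Y.1.1 0 0 + Y.1.1 1 1, Y.1.1 1 0 - Y.1.1 0 1), Y.1.1 0 0 - Y.1.1 1 1,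
        Y.1.1 0 1 + Y.1.1 1 0), Y.2, by linear_combination -4 * sl_det Y.1 - h3⟩,
      fun x => ⟨mkSL !![-(x.1.1.1 + x.1.2.1), x.1.1.2 - x.1.2.2; -(x.1.1.2 + x.1.2.2), x.1.2.1 - x.1.1.1] (by
        rw [det_fin_two_of]; linear_combination -x.2.2), ?_⟩, fun Y => Subtype.ext (sl_ext (m2_ext ?_ ?_ ?_ ?_)), fun x => ?_⟩
    · convert x.2.1 using 1 <;> simp [mkSL]
      · linear_combination -x.1.1.1 * h3
      · linear_combination -x.1.1.2 * h3
    · simp [mkSL]; linear_combination -Y.1.1 0 0 * h3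
    · simp [mkSL]; linear_combination -Y.1.1 0 1 * h3
    · simp [mkSL]; linear_combination -Y.1.1 1 0 * h3
    · simp [mkSL]; linear_combination -Y.1.1 1 1 * h3
    · ext <;> simp [mkSL]
      · linear_combination -x.1.1.1 * h3
      · linear_combination -x.1.1.2 * h3
      · linear_combination -x.1.2.1 * h3
      · linear_combination -x.1.2.2 * h3
  rw [Nat.card_congr (Equiv.subtypeEquivRight k), e,
    card_prod_subtype (fun (x y : F × F) => A x.1 x.2 ∧ y.1 ^ 2 + y.2 ^ 2 = x.1 ^ 2 + x.2 ^ 2 - 1)]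
  have f : ∀ x : F × F, Nat.card {y : F × F // A x.1 x.2 ∧ y.1 ^ 2 + y.2 ^ 2 = x.1 ^ 2 + x.2 ^ 2 - 1} =
      (if x.1 ^ 2 + x.2 ^ 2 = 1 then 1 else 0) +
        (if x.1 ^ 2 + x.2 ^ 2 ≠ 1 ∧ A x.1 x.2 then 1 else 0) * (Fintype.card F + 1) := fun x => by
    by_cases h : x.1 ^ 2 + x.2 ^ 2 = 1
    · simp only [A, h, true_or, true_and, sub_self, z]
      rw [Nat.card_congr (Equiv.subtypeEquivRight (q := fun y : F × F => y = 0) fun y => by simp [Prod.ext_iff])]; simp
    · by_cases h' : A x.1 x.2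
      · simp only [h', true_and, card_sum_sq hE (sub_ne_zero.2 h)]; simp [h]
      · simp [h, h']
  have g1 : ∑ x : F × F, (if x.1 ^ 2 + x.2 ^ 2 = 1 then 1 else 0) = Fintype.card F + 1 := by
    rw [← card_sum_sq hE one_ne_zero]; simp [Fintype.card_subtype]
  have g2 : ∀ s : F, ∑ t : F, (if s ^ 2 + t ^ 2 ≠ 1 ∧ A s t then 1 else 0) + (if s = 0 then 3 else 0) =
      1 + (if s = 0 then Fintype.card F else 0) + (if s ^ 2 = 1 then 1 else 0) := fun s => by
    have c2 : (Finset.univ.filter fun t : F => t ^ 2 = 1).card = 2 := by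
      refine Eq.trans ?_ (card_sq_eq_one_odd h2); simp [Fintype.card_subtype]
    by_cases hs : s = 0
    · have := Finset.card_filter_add_card_filter_not (s := Finset.univ) fun t : F => t ^ 2 = 1
      simp [A, hs] at this ⊢
      simp at c2
      omega
    · by_cases h1 : s ^ 2 = 1
      · simp only [A, h1, hs, if_true, if_false]
        refine Eq.trans ?_ c2
        rw [Finset.sum_boole]
        simp only [Nat.cast_id, add_zero]
        congr 1; ext t; simp
        constructor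
        · tauto
        · rintro (rfl | rfl) <;> simp
      · simp only [A, h1, hs, if_false]
        rw [Finset.sum_eq_single 0] <;> simp [h1]
        tauto
  have g3 : ∑ s : F, (if s ^ 2 = 1 then 1 else 0) = 2 := by
    refine Eq.trans ?_ (card_sq_eq_one_odd h2); simp [Fintype.card_subtype]
  have g4 := Finset.sum_congr rfl fun s (_ : s ∈ Finset.univ) => g2 s
  simp only [Finset.sum_add_distrib, g3] at g4
  simp only [f, Finset.sum_add_distrib, g1, ← Finset.sum_mul]
  rw [Fintype.sum_prod_type]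
  simp only [Finset.sum_ite_eq', Finset.mem_univ, if_true, Finset.sum_const, Finset.card_univ, smul_eq_mul, mul_one] at g4
  rw [show ∑ s : F, ∑ t : F, (if s ^ 2 + t ^ 2 ≠ 1 ∧ A s t then 1 else 0) = 2 * Fintype.card F - 1 by omega]
  obtain ⟨m, hm⟩ := Nat.exists_eq_add_one.2 (Fintype.card_pos (α := F))
  rw [hm, show 2 * (m + 1) - 1 = 2 * m + 1 by omega]; ring

theorem type_of_order [Fintype F] (p : ℕ) [Fact p.Prime] [CharP F p] {X : SLT F} (h1 : pr X ≠ 1)
    (h2 : orderOf (pr X) ≠ 2 ∨ p = 2) :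
    (orderOf (pr X) ∣ Fintype.card F - 1 → Spl X.1.trace 1) ∧ (orderOf (pr X) ∣ Fintype.card F + 1 → Ell X.1.trace 1) ∧
      (orderOf (pr X) = p → X.1.trace ^ 2 = 4) := by
  have a1 := not_char_dvd_card_add_one (F := F) p
  have a2 := not_char_dvd_card_sub_one (F := F) p
  have o1 : orderOf (pr X) ≠ 1 := by simpa using h1
  have par : X.1.trace ^ 2 = 4 → orderOf (pr X) = p := fun h =>
    ((Nat.dvd_prime Fact.out).1 (orderOf_pr_of_par p h)).resolve_left o1
  have el : Ell X.1.trace 1 → orderOf (pr X) ∣ Fintype.card F + 1 := fun h => orderOf_pr_dvd_iff.2 (Or.inl (pow_of_ell h))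
  have sp : Spl X.1.trace 1 → orderOf (pr X) ∣ Fintype.card F - 1 := fun h => orderOf_pr_dvd_iff.2 (Or.inl (pow_of_spl h))
  have both : orderOf (pr X) ∣ Fintype.card F - 1 → orderOf (pr X) ∣ Fintype.card F + 1 → False := fun u v => by
    have := Nat.dvd_sub v u
    rw [show Fintype.card F + 1 - (Fintype.card F - 1) = 2 by have := Fintype.card_pos (α := F); omega] at this
    have e := ((Nat.dvd_prime Nat.prime_two).1 this).resolve_left o1
    rcases h2 with h2 | rfl
    exacts [h2 e, a1 (e ▸ v)]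
  by_cases ht : X.1.trace ^ 2 = 4
  · exact ⟨fun h => absurd (par ht ▸ h) a2, fun h => absurd (par ht ▸ h) a1, fun _ => ht⟩
  · rcases ell_or_spl_one ht with h | h
    · exact ⟨fun u => (both u (el h)).elim, fun _ => h, fun e => absurd (e ▸ el h) a1⟩
    · exact ⟨fun _ => h, fun u => (both (sp h) u).elim, fun e => absurd (e ▸ sp h) a2⟩

end Cfsg.Agent.SL2
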