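import Cfsg.Agent.SL2.Quat

/-!
Solvable subgroups of SL₂.
-/

set_option autoImplicit false

open Matrix
open scoped commutatorElement

namespace Cfsg.Agent.SL2

section grp
variable {G : Type*} [Group G]

theorem solv_of_le {H K : Subgroup G} (h : H ≤ K) (hK : Group.IsSolvable K) : Group.IsSolvable H :=
  Group.isSolvable_of_isSolvable_injective (Subgroup.inclusion_injective h)

theorem solv_of_comm_le {H A : Subgroup G} (h : ∀ a ∈ H, ∀ b ∈ H, ⁅a, b⁆ ∈ A) (hA : Group.IsSolvable A) :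
    Group.IsSolvable H := by
  have : Group.IsSolvable (A.subgroupOf H) :=
    Group.isSolvable_of_isSolvable_injective (f := (H.subtype.comp (A.subgroupOf H).subtype).codRestrict A fun x => x.2)
      fun x y e => Subtype.ext (Subtype.ext (congrArg (fun z : A => (z : G)) e))
  refine Group.isSolvable_of_ker_le_range (A.subgroupOf H).subtype Abelianization.of ?_
  rw [Abelianization.ker_of, Subgroup.range_subtype, commutator_def, Subgroup.commutator_le]
  exact fun a _ b _ => h a a.2 b b.2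

theorem solv_of_comm {H : Subgroup G} (h : ∀ a ∈ H, ∀ b ∈ H, a * b = b * a) : Group.IsSolvable H :=
  Group.isSolvable_of_comm fun a b => Subtype.ext (h a a.2 b b.2)

/-- two elements generate a solvable group -/
def Sv (x y : G) : Prop := Group.IsSolvable (Subgroup.closure ({x, y} : Set G))

theorem sv_of_mem {K : Subgroup G} (hK : Group.IsSolvable K) {x y : G} (hx : x ∈ K) (hy : y ∈ K) : Sv x y :=
  solv_of_le ((Subgroup.closure_le K).2 (by rintro _ (rfl | rfl) <;> assumption)) hK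

theorem Sv.map {G' : Type*} [Group G'] (f : G →* G') {x y : G} (h : Sv x y) : Sv (f x) (f y) := by
  have : Group.IsSolvable _ := h
  have e : Subgroup.closure ({f x, f y} : Set G') = (Subgroup.closure ({x, y} : Set G)).map f := by
    rw [MonoidHom.map_closure, Set.image_pair]
  rw [Sv, e]
  exact Group.isSolvable_of_surjective (f.subgroupMap_surjective _)

theorem Sv.of_map {G' : Type*} [Group G'] (f : G →* G') (hf : f.ker ≤ Subgroup.center G) {x y : G}
    (h : Sv (f x) (f y)) : Sv x y := by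
  have e : Subgroup.closure ({f x, f y} : Set G') = (Subgroup.closure ({x, y} : Set G)).map f := by
    rw [MonoidHom.map_closure, Set.image_pair]
  rw [Sv, e] at h
  have : Group.IsSolvable ((Subgroup.center G).subgroupOf (Subgroup.closure ({x, y} : Set G))) :=
    Group.isSolvable_of_comm fun a b => Subtype.ext (Subtype.ext (Subgroup.mem_center_iff.1 b.2 _))
  refine Group.isSolvable_of_ker_le_range ((Subgroup.center G).subgroupOf _).subtype (f.subgroupMap _) ?_
  rw [Subgroup.range_subtype]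
  exact fun a ha => hf (congrArg Subtype.val ha)

theorem card_sv_conj {x x' : G} (h : IsConj x x') : Nat.card {y // Sv x y} = Nat.card {y // Sv x' y} := by
  obtain ⟨c, rfl⟩ := isConj_iff.1 h
  refine Nat.card_congr ((MulAut.conj c).toEquiv.subtypeEquiv fun y => ⟨fun h => h.map (MulAut.conj c).toMonoidHom,
    fun h => ?_⟩)
  simpa [mul_assoc] using h.map (MulAut.conj c).symm.toMonoidHom

theorem exists_abelian_mod {H Z : Subgroup G} (hH : Group.IsSolvable H) (h : ¬ H ≤ Z) :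
    ∃ A ≤ H, ¬ A ≤ Z ∧ (∀ a ∈ A, ∀ b ∈ A, ⁅a, b⁆ ∈ Z) ∧ ∀ g ∈ H, ∀ a ∈ A, g * a * g⁻¹ ∈ A := by
  classical
  have ex : ∃ n, (derivedSeries H n).map H.subtype ≤ Z := by
    obtain ⟨n, hn⟩ := hH
    exact ⟨n, by simp [hn]⟩
  have h0 : Nat.find ex ≠ 0 := fun e => h (by
    have := Nat.find_spec ex
    rwa [e, derivedSeries_zero, ← MonoidHom.range_eq_map, Subgroup.range_subtype] at this)
  obtain ⟨k, hk⟩ := Nat.exists_eq_succ_of_ne_zero h0
  refine ⟨(derivedSeries H k).map H.subtype, Subgroup.map_subtype_le _, Nat.find_min ex (by omega), ?_, ?_⟩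
  · rintro _ ⟨a, ha, rfl⟩ _ ⟨b, hb, rfl⟩
    have := Nat.find_spec ex
    rw [hk] at this
    exact this ⟨⁅a, b⁆, Subgroup.commutator_mem_commutator ha hb, by simp [commutatorElement_def]⟩
  · rintro g hg _ ⟨a, ha, rfl⟩
    exact ⟨_, (derivedSeries_normal H k).conj_mem a ha ⟨g, hg⟩, rfl⟩

/-- elements centralising or inverting `g` -/
def IV (g : G) : Subgroup G where
  carrier := {h | h * g * h⁻¹ = g ∨ h * g * h⁻¹ = g⁻¹}
  one_mem' := by simp
  mul_mem' := by
    intro a b ha hb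
    have e : a * b * g * (a * b)⁻¹ = a * (b * g * b⁻¹) * a⁻¹ := by group
    have e' : a * g⁻¹ * a⁻¹ = (a * g * a⁻¹)⁻¹ := by group
    rcases ha with ha | ha <;> rcases hb with hb | hb <;> simp only [Set.mem_ofPred_eq, e, hb, e', ha] <;> simp
  inv_mem' := by
    rintro a (ha | ha)
    · left; conv_lhs => rw [← ha]
      group
    · right; rw [← _root_.inv_inj, inv_inv]; conv_lhs => rw [← inv_inv g, ← ha]
      group

end grp

variable {F : Type*} [Field F]

theorem card_sv_pr (X : SLT F) :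
    Nat.card {y // Sv (pr X) y} * Nat.card (Subgroup.center (SLT F)) = Nat.card {Y // Sv X Y} := by
  rw [mul_comm]
  refine (QuotientGroup.card_preimage_mk (Subgroup.center (SLT F)) {y | Sv (pr X) y}).symm.trans ?_
  exact Nat.card_congr (Equiv.subtypeEquivRight fun Y => ⟨fun h => Sv.of_map pr pr_ker.le h, fun h => h.map pr⟩)

theorem solv_IV {g : SLT F} (hg : ¬ IsScal g.1) : Group.IsSolvable (IV g) := by
  refine solv_of_comm_le (A := Cen g) (fun a ha b hb => mem_cen'.2 ?_) (solv_of_comm fun a ha b hb => cent_comm hg ha hb)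
  have ha' := inv_mem ha
  have hb' := inv_mem hb
  have k : ∀ a : SLT F, a * g⁻¹ * a⁻¹ = (a * g * a⁻¹)⁻¹ := fun a => by group
  have e : ⁅a, b⁆ * g * ⁅a, b⁆⁻¹ = a * (b * (a⁻¹ * (b⁻¹ * g * b⁻¹⁻¹) * a⁻¹⁻¹) * b⁻¹) * a⁻¹ := by
    rw [commutatorElement_def]; group
  have ia : (a * g * a⁻¹ = g ∧ a⁻¹ * g * a⁻¹⁻¹ = g) ∨ (a * g * a⁻¹ = g⁻¹ ∧ a⁻¹ * g * a⁻¹⁻¹ = g⁻¹) := by
    rcases ha with h | h
    · exact Or.inl ⟨h, by (conv_lhs => rw [← h]); group⟩
    · exact Or.inr ⟨h, by (conv_lhs => rw [← inv_inv g, ← h]); group⟩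
  have ib : (b * g * b⁻¹ = g ∧ b⁻¹ * g * b⁻¹⁻¹ = g) ∨ (b * g * b⁻¹ = g⁻¹ ∧ b⁻¹ * g * b⁻¹⁻¹ = g⁻¹) := by
    rcases hb with h | h
    · exact Or.inl ⟨h, by (conv_lhs => rw [← h]); group⟩
    · exact Or.inr ⟨h, by (conv_lhs => rw [← inv_inv g, ← h]); group⟩
  rcases ia with ⟨a1, a2⟩ | ⟨a1, a2⟩ <;> rcases ib with ⟨b1, b2⟩ | ⟨b1, b2⟩ <;>
    simp only [e, k, a1, a2, b1, b2, inv_inv g]

theorem sv_of_iv {g X Y : SLT F} (hX : X ∈ IV g) (hY : Y ∈ IV g) (hg : ¬ IsScal g.1) : Sv X Y :=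
  sv_of_mem (solv_IV hg) hX hY

theorem sv_of_isScal {X Y : SLT F} (hX : ¬ IsScal X.1) (hY : IsScal Y.1) : Sv X Y :=
  sv_of_iv (g := X) (Or.inl (by simp)) (Or.inl (by
    rw [mul_inv_eq_iff_eq_mul]; exact sl_ext (hY.comm _).symm)) hX

theorem inverts_of_trace {X Y : SLT F} (hX : X.1.trace = 0) (h : (X * Y).1.trace = 0) : X * Y * X⁻¹ = Y⁻¹ := by
  have h1 := sq_eq_neg_one_of_trace h
  rw [inv_eq_neg_of_trace hX, eq_inv_iff_mul_eq_one, mul_neg, neg_mul, mul_assoc, h1, neg_neg]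

theorem sv_of_trace_mul {X Y : SLT F} (hs : ¬ IsScal X.1) (hX : X.1.trace = 0) (h : (X * Y).1.trace = 0) : Sv X Y := by
  by_cases hY : IsScal Y.1
  · exact sv_of_isScal hs hY
  · exact sv_of_iv (Or.inr (inverts_of_trace hX h)) (Or.inl (by simp)) hY

theorem sv_mul {G : Type*} [Group G] {X Y : G} (h : Sv X (X * Y)) : Sv X Y :=
  sv_of_mem h (Subgroup.subset_closure (by simp)) ((mul_mem_cancel_left (x := X) (y := Y) (Subgroup.subset_closure (by simp))).1
    (Subgroup.subset_closure (k := {X, X * Y}) (by simp)))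

theorem sv_of_trace {X Y : SLT F} (hs : ¬ IsScal X.1) (hX : X.1.trace = 0) (h : Y.1.trace = 0) : Sv X Y :=
  sv_mul (sv_of_trace_mul hs hX (by rw [← mul_assoc, sq_eq_neg_one_of_trace hX, neg_one_mul, sl_trace_neg, h, neg_zero]))

/-- upper triangular matrices -/
def Bor (F : Type*) [Field F] : Subgroup (SLT F) where
  carrier := {g | g.1 1 0 = 0}
  one_mem' := by simp
  mul_mem' := by
    intro a b ha hb
    simp only [Set.mem_ofPred_eq] at *
    rw [Matrix.SpecialLinearGroup.coe_mul, mul_ap, ha, hb]; simp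
  inv_mem' := by
    intro a ha
    simp only [Set.mem_ofPred_eq] at *
    rw [sl_inv_val]; simp [ha]

theorem solv_Bor : Group.IsSolvable (Bor F) := by
  refine solv_of_comm_le (A := Cen (upT 1)) (fun a ha b hb => mem_cen.2 (sl_ext ?_))
    (solv_of_comm fun a ha b hb => cent_comm (by simp [isScal_upT]) ha hb)
  have h1 : (⁅a, b⁆).1 1 0 = 0 := (Bor F).mul_mem ((Bor F).mul_mem ((Bor F).mul_mem ha hb) (inv_mem ha)) (inv_mem hb)
  have h2 : (⁅a, b⁆).1 0 0 = (⁅a, b⁆).1 1 1 := by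
    have ha : a.1 1 0 = 0 := ha
    have hb : b.1 1 0 = 0 := hb
    simp only [commutatorElement_def, Matrix.SpecialLinearGroup.coe_mul, sl_inv_val, mul_ap]
    simp [ha, hb]; ring
  simp only [Matrix.SpecialLinearGroup.coe_mul, upT_val, m2_ext_iff, mul_ap]
  simp [h1, h2, add_comm]

theorem sv_of_bor {X Y : SLT F} (hX : X.1 1 0 = 0) (hY : Y.1 1 0 = 0) : Sv X Y := sv_of_mem solv_Bor hX hY

theorem sv_of_bor' {X Y : SLT F} (hX : X.1 0 1 = 0) (hY : Y.1 0 1 = 0) : Sv X Y := by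
  have k : ∀ X : SLT F, X.1 0 1 = 0 → (wS * X * wS⁻¹).1 1 0 = 0 := fun X h => by
    simp only [Matrix.SpecialLinearGroup.coe_mul, sl_inv_val, mul_ap, wS_val]; simp [h]
  simpa [mul_assoc] using (sv_of_bor (k X hX) (k Y hY)).map (MulAut.conj wS).symm.toMonoidHom

/-- the normaliser of a quaternion subgroup -/
abbrev NQ (s w : SLT F) : Subgroup (SLT F) := Subgroup.normalizer ((q8 s w : Subgroup (SLT F)) : Set (SLT F))

theorem solv_NQ {s w : SLT F} (h : QPair s w) (hns : ¬ IsSquare (2 : F)) : Group.IsSolvable (NQ s w) := by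
  have h0 := solv_IV (sl_not_isScal_of_disc h.disc)
  have h1 : Group.IsSolvable ((q8 s w).subgroupOf (NQ s w)) :=
    Group.isSolvable_of_isSolvable_injective (G' := IV s)
      (f := ((NQ s w).subtype.comp (Subgroup.subtype ((q8 s w).subgroupOf (NQ s w)))).codRestrict _
        fun x => (mem_ncen_iff h.disc).1 (h.le_ncen x.2))
      (fun x y e => Subtype.ext (Subtype.ext (congrArg (fun z : IV s => (z : SLT F)) e)))
  have h2 : Nat.card (NQ s w ⧸ (q8 s w).subgroupOf (NQ s w)) = 3 := by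
    have := h.finite_q8
    have e := Subgroup.card_eq_card_quotient_mul_card_subgroup ((q8 s w).subgroupOf (NQ s w))
    rw [h.card_normalizer hns, Nat.card_congr (Subgroup.subgroupOfEquivOfLe Subgroup.le_normalizer).toEquiv] at e
    exact (Nat.eq_of_mul_eq_mul_right Nat.card_pos e).symm
  have : Fact (Nat.Prime 3) := ⟨by norm_num⟩
  have h3 := isCyclic_of_prime_card h2
  exact (Group.isSolvable_iff_subgroup_quotient _).2 ⟨h1, Group.isSolvable_of_comm fun a b => mul_comm' a b⟩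

theorem sv_of_a4 (h2 : (2 : F) ≠ 0) (hns : ¬ IsSquare (2 : F)) {s y : SLT F} (hs : s.1.trace = 0)
    (hy : y.1.trace ^ 2 = 1) (h : (s * y).1.trace ^ 2 = 1) : Sv s y := by
  have cube : ∀ g : SLT F, g.1.trace ^ 2 = 1 → g ^ 3 = 1 ∨ g ^ 3 = -1 := fun g hg => by
    have e : (g ^ 3).1 = (-g.1.trace) • (1 : M2 F) := by
      rw [pow_succ', pow_two, Matrix.SpecialLinearGroup.coe_mul, Matrix.SpecialLinearGroup.coe_mul, sl_cayley, mul_sub,
        mul_smul_comm, sl_cayley, smul_sub, smul_smul, ← pow_two, hg]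
      simp
    exact sl_isScal_iff.1 (isScal_iff.2 ⟨_, e⟩)
  have h1 : (y * s * y⁻¹).1.trace = 0 := by rw [sl_trace_conj, hs]
  have h3 : (y * s * y⁻¹ * s).1.trace = 0 := by
    have d1 := sl_det s
    have d2 := sl_det y
    simp only [Matrix.SpecialLinearGroup.coe_mul, sl_inv_val, mul_ap, trace_fin_two] at hs hy h ⊢
    simp only [of_apply, cons_val', cons_val_zero, cons_val_one, cons_val_fin_one]
    have : s.1 1 1 = -s.1 0 0 := by linear_combination hs
    rw [this] at d1 h ⊢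
    linear_combination -h - hy + ((y.1 0 0 + y.1 1 1) ^ 2 - 2 * (y.1 0 0 * y.1 1 1 - y.1 0 1 * y.1 1 0)) * (-d1) + 2 * d2
  have hq : QPair s (y * s * y⁻¹) := ⟨h2, hs, inverts_of_trace h1 h3⟩
  refine sv_of_mem (solv_NQ hq hns) (Subgroup.le_normalizer (left_mem_q8 _ _)) ?_
  have : Finite ((q8 s (y * s * y⁻¹) : Subgroup (SLT F)) : Set (SLT F)) := hq.finite_q8
  refine Subgroup.mem_normalizer_fintype fun x hx => ?_
  have k : (q8 s (y * s * y⁻¹)).map (MulAut.conj y).toMonoidHom ≤ q8 s (y * s * y⁻¹) := by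
    rw [q8, MonoidHom.map_closure, Subgroup.closure_le, Set.image_pair]
    rintro _ (rfl | rfl)
    · exact right_mem_q8 _ _
    · have e : (MulAut.conj y).toMonoidHom (y * s * y⁻¹) = (s * (y * s * y⁻¹))⁻¹ * ((s * y) ^ 3 * (y ^ 3)⁻¹) := by
        simp only [MulEquiv.toMonoidHom_eq_coe, MonoidHom.coe_coe, MulAut.conj_apply, pow_succ]; group
      rw [e]
      refine mul_mem (inv_mem (mul_mem (left_mem_q8 _ _) (right_mem_q8 _ _))) (mul_mem ?_ (inv_mem ?_))
      · rcases cube _ h with e | e <;> rw [e]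
        exacts [one_mem _, hq.neg_one_mem]
      · rcases cube _ hy with e | e <;> rw [e]
        exacts [one_mem _, hq.neg_one_mem]
  exact k ⟨x, hx, rfl⟩

theorem solv_cases {H : Subgroup (SLT F)} (hH : Group.IsSolvable H) :
    (∃ x y : F, (x ≠ 0 ∨ y ≠ 0) ∧ ∀ g ∈ H, Q g.1 x y = 0) ∨ (∃ s : SLT F, s.1.trace ^ 2 ≠ 4 ∧ H ≤ NCen s) ∨
      ∃ s w, QPair s w ∧ H ≤ NQ s w := by
  by_cases h0 : H ≤ Subgroup.center _
  · exact Or.inl ⟨1, 0, Or.inl one_ne_zero, fun g hg => Q_of_isScal (sl_mem_center_iff.1 (h0 hg)) _ _⟩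
  obtain ⟨A, hA, h1, h2, h3⟩ := exists_abelian_mod hH h0
  have pm : ∀ a ∈ A, ∀ b ∈ A, a * b * a⁻¹ = b ∨ a * b * a⁻¹ = -b := fun a ha b hb => by
    rcases sl_mem_center_iff'.1 (h2 a ha b hb) with e | e <;> rw [commutatorElement_def, mul_inv_eq_iff_eq_mul] at e
    · exact Or.inl (by simpa using e)
    · exact Or.inr (by simpa using e)
  by_cases hc : ∀ a ∈ A, ∀ b ∈ A, a * b * a⁻¹ = b
  · obtain ⟨g, hg, hg'⟩ := SetLike.not_le_iff_exists.1 h1
    rw [sl_mem_center_iff] at hg'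
    have k : ∀ h ∈ H, h * g * h⁻¹ ∈ Cen g := fun h hh => mem_cen'.2 (hc _ (h3 h hh g hg) g hg)
    by_cases ht : g.1.trace ^ 2 = 4
    · left
      obtain ⟨ε, he, hε⟩ : ∃ ε : F, ε * ε = 1 ∧ g.1.trace = 2 * ε := by
        rcases trace_eq_of_disc ht with e | e
        exacts [⟨1, by simp, by simpa⟩, ⟨-1, by simp, by simpa⟩]
      have dg := sl_det g
      rw [trace_fin_two] at hε
      have k2 : ∀ h ∈ H, ∃ c : F, h.1 * (g.1 - ε • 1) = c • (g.1 - ε • 1) * h.1 := fun h hh => by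
        obtain ⟨a, b, e⟩ := exists_of_comm hg' (mem_cent_sl.1 (k h hh))
        have e1 := congrArg Matrix.trace e
        have e2 := congrArg Matrix.det e
        rw [sl_trace_conj, trace_comb, trace_fin_two, hε] at e1
        rw [(h * g * h⁻¹).2, det_comb, g.2, trace_fin_two, hε] at e2
        have e3 : a + b * ε = ε := by
          by_cases h2 : (2 : F) = 0
          · have : (a + b * ε - ε) ^ 2 = 0 := by
              linear_combination -e2 + (b ^ 2 + 1) * he - (a * ε + b * ε ^ 2 - 1) * h2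
            exact sub_eq_zero.1 (pow_eq_zero_iff two_ne_zero |>.1 this)
          · exact mul_left_cancel₀ h2 (by linear_combination -e1)
        refine ⟨b, ?_⟩
        have e4 : h.1 * g.1 = (h * g * h⁻¹).1 * h.1 := by
          rw [← Matrix.SpecialLinearGroup.coe_mul, ← Matrix.SpecialLinearGroup.coe_mul, inv_mul_cancel_right]
        rw [mul_sub, e4, e, smul_sub, smul_smul, show b * ε = ε - a by linear_combination e3]
        simp only [add_mul, sub_mul, smul_mul_assoc, mul_smul_comm, one_mul, mul_one, sub_smul]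
        abel
      by_cases hb : g.1 0 1 = 0
      · have h5 : g.1 0 0 = ε := by
          have : (g.1 0 0 - ε) ^ 2 = 0 := by rw [hb] at dg; linear_combination g.1 0 0 * hε - dg + he
          exact sub_eq_zero.1 (pow_eq_zero_iff two_ne_zero |>.1 this)
        have h6 : g.1 1 1 = ε := by linear_combination hε - h5
        have h7 : g.1 1 0 ≠ 0 := fun e => hg' ⟨hb, e, h5.trans h6.symm⟩
        refine ⟨0, 1, Or.inr one_ne_zero, fun h hh => ?_⟩
        obtain ⟨c, e⟩ := k2 h hh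
        have := congrFun (congrFun e 0) 0
        simp [mul_ap, hb, h5, h7] at this
        simp [Q, this]
      · refine ⟨g.1 0 1, ε - g.1 0 0, Or.inl hb, fun h hh => ?_⟩
        obtain ⟨c, e⟩ := k2 h hh
        have e0 := congrFun (congrFun e 0) 1
        have e1 := congrFun (congrFun e 1) 1
        simp [mul_ap] at e0 e1
        have h6 : g.1 1 1 = 2 * ε - g.1 0 0 := by linear_combination hε
        rw [h6] at e0 e1 dg
        simp only [Q]
        linear_combination g.1 0 1 * e1 - (ε - g.1 0 0) * e0 - c * h.1 0 1 * (dg - he)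
    · refine Or.inr (Or.inl ⟨g, ht, fun h hh => (mem_ncen_iff ht).2 ?_⟩)
      exact eq_or_eq_inv_of_mem_cent ht (k h hh) (sl_trace_conj _ _)
  · push Not at hc
    obtain ⟨w, hw, s, hs, hne⟩ := hc
    have e := (pm w hw s hs).resolve_left hne
    have h2 : (2 : F) ≠ 0 := fun h2 => hne (by rw [e, sl_neg_eq_self h2])
    have ht : s.1.trace = 0 := by
      have := congrArg (fun g : SLT F => g.1.trace) e
      simp only [sl_trace_conj, sl_trace_neg] at this
      exact mul_left_cancel₀ h2 (by linear_combination this)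
    have hq : QPair s w := ⟨h2, ht, by rw [e, inv_eq_neg_of_trace ht]⟩
    have sub : ∀ a ∈ A, a ∈ q8 s w := fun a ha => by
      have c : ∀ b : SLT F, b * s * b⁻¹ = s → b * w * b⁻¹ = w ∨ b * w * b⁻¹ = -w → b ∈ q8 s w := fun b h1 h2 => by
        obtain ⟨x, y, e1⟩ := exists_of_comm (sl_not_isScal_of_disc hq.disc) (mem_cent_sl.1 (mem_cen'.2 h1))
        have i := inv_of_inverts (sl_not_isScal_of_disc hq.disc) hq.inv (mem_cen'.2 h1)
        have b2 : b * w * b⁻¹ = b * b * w := by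
          rw [mul_assoc, mul_assoc, mul_right_inj, mul_inv_eq_iff_eq_mul, mul_assoc]
          conv_lhs => rw [← mul_inv_cancel_left b w, ← i]
          group
        rw [hq.mem_iff]
        rcases h2 with h | h
        · have := isScal_of_sq_eq_one hq.two (mul_right_cancel ((b2.symm.trans h).trans (one_mul w).symm))
          rcases sl_isScal_iff.1 this with e | e <;> simp [e]
        · have h4 : b * b = -1 := mul_right_cancel ((b2.symm.trans h).trans (neg_one_mul w).symm)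
          have h5 : ¬ IsScal b.1 := fun hb => sl_neg_ne_self hq.two 1 (by rw [← h4, ← pow_two, sq_eq_one_of_isScal hb])
          rcases eq_or_eq_inv_of_mem_cent hq.disc (mem_cen'.2 h1) (((trace_zero_iff_sq h5).2 h4).trans ht.symm) with e | e <;>
            simp [e, hq.si]
      rcases pm a ha s hs with h | h
      · exact c a h (pm a ha w hw)
      · refine (mul_mem_cancel_left (right_mem_q8 s w)).1 (c (w * a) ?_ (pm _ (mul_mem hw ha) w hw))
        calc w * a * s * (w * a)⁻¹ = w * (a * s * a⁻¹) * w⁻¹ := by group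
          _ = s := by rw [h, mul_neg, neg_mul, e, neg_neg]
    refine Or.inr (Or.inr ⟨s, w, hq, fun h hh => ?_⟩)
    have : Finite ((q8 s w : Subgroup (SLT F)) : Set (SLT F)) := hq.finite_q8
    refine Subgroup.mem_normalizer_fintype fun x hx => ?_
    have k : (q8 s w).map (MulAut.conj h).toMonoidHom ≤ q8 s w := by
      rw [q8, MonoidHom.map_closure, Subgroup.closure_le, Set.image_pair]
      rintro _ (rfl | rfl)
      exacts [sub _ (h3 h hh s hs), sub _ (h3 h hh w hw)]
    exact k ⟨x, hx, rfl⟩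

theorem Sv.cases (hns : (2 : F) = 0 ∨ ¬ IsSquare (2 : F)) {X Y : SLT F} (hX : ¬ IsScal X.1) (h : Sv X Y) :
    (∃ x y : F, (x ≠ 0 ∨ y ≠ 0) ∧ Q X.1 x y = 0 ∧ Q Y.1 x y = 0) ∨ (X.1.trace ^ 2 ≠ 4 ∧ Y ∈ NCen X) ∨
      (X.1.trace = 0 ∧ (Y.1.trace = 0 ∨ (X * Y).1.trace = 0)) ∨
      ((2 : F) ≠ 0 ∧ ∀ g ∈ Subgroup.closure ({X, Y} : Set (SLT F)), IsScal g.1 ∨ g.1.trace = 0 ∨ g.1.trace ^ 2 = 1) := by
  have hx : X ∈ Subgroup.closure ({X, Y} : Set (SLT F)) := Subgroup.subset_closure (by simp)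
  have hy : Y ∈ Subgroup.closure ({X, Y} : Set (SLT F)) := Subgroup.subset_closure (by simp)
  rcases solv_cases h with ⟨x, y, h0, h1⟩ | ⟨s, hs, h1⟩ | ⟨s, w, hq, h1⟩
  · exact Or.inl ⟨x, y, h0, h1 _ hx, h1 _ hy⟩
  · by_cases h2 : X ∈ Cen s
    · have e : Cen X = Cen s := cent_eq_of_mem (sl_not_isScal_of_disc hs) hX h2
      obtain ⟨b, hb, e2⟩ := disc_of_mem_cent (sl_not_isScal_of_disc hs) hX h2
      refine Or.inr (Or.inl ⟨fun e3 => mul_ne_zero (pow_ne_zero 2 hb) (sub_ne_zero.2 hs) (by rw [← e2, e3, sub_self]), ?_⟩)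
      rw [NCen, e]; exact h1 hy
    · have i := inverts_of_mem_ncen hs (h1 hx) h2
      refine Or.inr (Or.inr (Or.inl ⟨trace_eq_zero_of_inverts hs i, ?_⟩))
      by_cases h3 : Y ∈ Cen s
      · exact Or.inr (trace_eq_zero_of_inverts hs (inverts_mul_of_mem_cen i h3))
      · exact Or.inl (trace_eq_zero_of_inverts hs (inverts_of_mem_ncen hs (h1 hy) h3))
  · refine Or.inr (Or.inr (Or.inr ⟨hq.two, fun g hg => ?_⟩))
    by_cases h2 : g ∈ q8 s w
    · exact (hq.trace_cases h2).imp_right Or.inl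
    · exact Or.inr (Or.inr (hq.cube_of_not_mem (hns.resolve_left hq.two) (h1 hg) h2))

end Cfsg.Agent.SL2
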